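import Cfsg.Agent.SylowLinear.NormalRankBasic

/-!
The normal 2-rank of `GL_n(q)`, `q` odd.
-/

noncomputable section

set_option autoImplicit false

namespace Cfsg.Agent.SylowLinear.NormalRank

open Matrix Equiv
open scoped MatrixGroups

local notation "v₂" => padicValNat 2

theorem v_prod_one_mod_four {q : ℕ} (hq : q % 4 = 1) (h1 : 1 < q) (n : ℕ) :
    v₂ (∏ i ∈ Finset.range n, (q ^ (i + 1) - 1)) = n * v₂ (q - 1) + v₂ n.factorial := by
  haveI : Fact (Nat.Prime 2) := ⟨Nat.prime_two⟩
  have hodd : Odd q := Nat.odd_iff.2 (by omega)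
  have e2 : v₂ (q ^ 2 - 1) = v₂ (q - 1) + 1 := by
    have h : q ^ 2 - 1 = (q + 1) * (q - 1) := by simpa using Nat.sq_sub_sq q 1
    have h' : v₂ (q + 1) = 1 := by
      rw [show q + 1 = 2 * ((q + 1) / 2) by omega, padicValNat.mul two_ne_zero (by omega),
        padicValNat.self (by norm_num), padicValNat.eq_zero_of_not_dvd (by omega)]
    rw [h, padicValNat.mul (by omega) (by omega), h', add_comm]
  have key : ∀ i, v₂ (q ^ (i + 1) - 1) = v₂ (q - 1) + v₂ (i + 1) := by
    intro i
    rcases Nat.even_or_odd i with ⟨k, rfl⟩ | ⟨k, rfl⟩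
    · rw [← two_mul, v_pow_sub_one_odd hodd h1, padicValNat.eq_zero_of_not_dvd (n := 2 * k + 1) (by omega),
        add_zero]
    · rw [show 2 * k + 1 + 1 = 2 * (k + 1) by ring, v_pow_sub_one_even hodd h1, e2,
        padicValNat.mul two_ne_zero (Nat.succ_ne_zero k), padicValNat.self (by norm_num)]
      ring
  induction n with
  | zero => simp
  | succ n ih =>
    rw [Finset.prod_range_succ, padicValNat.mul (Finset.prod_ne_zero_iff.2 fun i _ => pow_sub_one_ne h1 i)
      (pow_sub_one_ne h1 n), ih, key, Nat.factorial_succ,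
      padicValNat.mul (Nat.succ_ne_zero n) (Nat.factorial_ne_zero n)]
    ring

variable {F : Type*} [Field F]

/-- An elementary abelian 2-group of invertible matrices has order at most `2 ^ n`. -/
theorem card_le_of_elemAb (h2 : (2 : F) ≠ 0) {ι : Type*} [Fintype ι] [DecidableEq ι] {X : Type*} [Group X]
    (f : X →* GL ι F) (hf : Function.Injective f) (E : Subgroup X) (hE : Cfsg.IsElementaryAbelian 2 E) :
    Nat.card E ≤ 2 ^ Fintype.card ι := by
  classical
  let m : E → ((ι → F) →ₗ[F] (ι → F)) := fun x => Matrix.toLin' ((f x : GL ι F) : Matrix ι ι F)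
  have hinj : Function.Injective m := Matrix.toLin'.injective.comp
    (Units.val_injective.comp (hf.comp Subtype.val_injective))
  have hmul : ∀ x y : E, ∀ v, m x (m y v) = m (x * y) v := fun x y v => by
    simp [m, Matrix.mulVec_mulVec]
  obtain ⟨b, hb⟩ := Known.exists_common_eigenbasis h2 (Set.range m)
    (by rintro _ ⟨x, rfl⟩ _ ⟨y, rfl⟩ v; rw [hmul, hmul, hE.1.is_comm.comm x y])
    (by
      rintro _ ⟨x, rfl⟩ v
      rw [hmul, ← pow_two, show x ^ 2 = 1 from Subtype.ext (by rw [Subgroup.coe_pow, hE.2 _ x.2]; rfl)]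
      simp [m])
  have hg : Function.Injective fun (x : E) i => decide (m x (b i) = b i) := by
    intro x y h
    refine hinj (Known.signs_injective b (fun i => hb _ ⟨x, rfl⟩ i) (fun i => hb _ ⟨y, rfl⟩ i) fun i => ?_)
    simpa using congrFun h i
  refine (Nat.card_le_card_of_injective _ hg).trans_eq ?_
  simp

/-! ### Monomial groups -/

variable {n : ℕ}

/-- Diagonal matrices. -/
def dg : (Fin n → Fˣ) →* GL (Fin n) F :=
  MonoidHom.toHomUnits
    { toFun := fun c => Matrix.diagonal fun i => (c i : F)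
      map_one' := by simp
      map_mul' := fun c d => by simp [Matrix.diagonal_mul_diagonal] }

theorem dg_val (c : Fin n → Fˣ) :
    ((dg c : GL (Fin n) F) : Matrix (Fin n) (Fin n) F) = Matrix.diagonal fun i => (c i : F) := rfl

/-- Permutation matrices. -/
def pm (F : Type*) [Field F] {n : ℕ} : Perm (Fin n) →* GL (Fin n) F :=
  (Matrix.permMatrixHom (n := Fin n) (R := F)).toHomUnits

theorem pm_val (s : Perm (Fin n)) :
    ((pm F s : GL (Fin n) F) : Matrix (Fin n) (Fin n) F) = s⁻¹.permMatrix F := rfl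

theorem pm_mul_dg (s : Perm (Fin n)) (c : Fin n → Fˣ) :
    pm F s * dg c = dg (fun i => c (s⁻¹ i)) * pm F s := by
  apply Units.ext
  rw [Units.val_mul, Units.val_mul, pm_val, dg_val, dg_val, Perm.permMatrix,
    PEquiv.toMatrix_toPEquiv_mul, PEquiv.mul_toMatrix_toPEquiv]
  ext i j
  simp only [submatrix_apply, id_eq, Matrix.diagonal_apply]
  change (if s⁻¹ i = j then (c (s⁻¹ i) : F) else 0) = if i = s j then (c (s⁻¹ i) : F) else 0
  exact if_congr Perm.inv_eq_iff_eq rfl rfl

theorem dg_mul_pm_inj {c d : Fin n → Fˣ} {s t : Perm (Fin n)} (h : dg c * pm F s = dg d * pm F t) :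
    c = d ∧ s = t := by
  have hent : ∀ (c : Fin n → Fˣ) (s : Perm (Fin n)) i j,
      ((dg c * pm F s : GL (Fin n) F) : Matrix _ _ F) i j = if i = s j then (c i : F) else 0 := by
    intro c s i j
    rw [Units.val_mul, pm_val, dg_val, Perm.permMatrix, PEquiv.mul_toMatrix_toPEquiv]
    simp only [submatrix_apply, id_eq, Matrix.diagonal_apply]
    rfl
  have hst : s = t := by
    refine Equiv.ext fun j => by_contra fun hne => ?_
    have h1 := congrArg (fun g : GL (Fin n) F => (g : Matrix (Fin n) (Fin n) F) (s j) j) h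
    simp only [hent, if_true, if_neg hne] at h1
    exact (c (s j)).ne_zero h1
  subst hst
  refine ⟨funext fun i => Units.ext ?_, rfl⟩
  have h1 := congrArg (fun g : GL (Fin n) F => (g : Matrix (Fin n) (Fin n) F) i (s⁻¹ i)) h
  simpa [hent] using h1

/-- The monomial group. -/
def mono (μ : Subgroup Fˣ) (R : Subgroup (Perm (Fin n))) : Subgroup (GL (Fin n) F) where
  carrier := {g | ∃ c : Fin n → Fˣ, (∀ i, c i ∈ μ) ∧ ∃ s ∈ R, g = dg c * pm F s}
  one_mem' := ⟨1, fun _ => one_mem _, 1, one_mem _, by rw [map_one, map_one, one_mul]⟩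
  mul_mem' := by
    rintro _ _ ⟨c, hc, s, hs, rfl⟩ ⟨d, hd, t, ht, rfl⟩
    refine ⟨c * fun i => d (s⁻¹ i), fun i => mul_mem (hc i) (hd _), s * t, mul_mem hs ht, ?_⟩
    calc dg c * pm F s * (dg d * pm F t) = dg c * (pm F s * dg d) * pm F t := by
          simp only [mul_assoc]
      _ = _ := by rw [pm_mul_dg, map_mul, map_mul]; simp only [mul_assoc]
  inv_mem' := by
    rintro _ ⟨c, hc, s, hs, rfl⟩
    refine ⟨fun i => c⁻¹ (s i), fun i => inv_mem (hc _), s⁻¹, inv_mem hs, ?_⟩
    rw [_root_.mul_inv_rev, ← map_inv, ← map_inv, pm_mul_dg]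
    simp only [inv_inv]

theorem card_mono [Finite F] (μ : Subgroup Fˣ) (R : Subgroup (Perm (Fin n))) :
    Nat.card (mono μ R) = Nat.card μ ^ n * Nat.card R := by
  have hb : Function.Bijective (fun v : (Fin n → μ) × R =>
      (⟨dg (fun i => (v.1 i : Fˣ)) * pm F v.2,
        fun i => (v.1 i : Fˣ), fun i => (v.1 i).2, v.2, v.2.2, rfl⟩ : mono μ R)) := by
    constructor
    · rintro ⟨c, s⟩ ⟨d, t⟩ h
      obtain ⟨h1, h2⟩ := dg_mul_pm_inj (Subtype.ext_iff.1 h)
      exact Prod.ext (funext fun i => Subtype.ext (congrFun h1 i)) (Subtype.ext h2)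
    · rintro ⟨g, c, hc, s, hs, rfl⟩
      exact ⟨(fun i => ⟨c i, hc i⟩, ⟨s, hs⟩), rfl⟩
  rw [← Nat.card_eq_of_bijective _ hb, Nat.card_prod, Nat.card_fun, Nat.card_fin]

/-- A sign as a unit of `F`. -/
def sg (F : Type*) [Field F] : ℤˣ →* Fˣ := Units.map (Int.castRingHom F : ℤ →* F)

theorem sg_neg_one : sg F (-1) = -1 := Units.ext (by simp [sg])

theorem sg_injective (h2 : (2 : F) ≠ 0) : Function.Injective (sg F) := fun u v h => by
  have h11 : (1 : F) ≠ -1 := fun h => h2 (by linear_combination h)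
  have h' : ((u : ℤ) : F) = ((v : ℤ) : F) := congrArg Units.val h
  rcases Int.units_eq_one_or u with hu | hu <;> rcases Int.units_eq_one_or v with hv | hv <;>
    simp [hu, hv] at h' ⊢ <;> first | exact h11 h' | exact h11 h'.symm

theorem le_sylow_of_central {G : Type*} [Group G] (P : Sylow 2 G) {z : G} (hz : z * z = 1)
    (hc : z ∈ Subgroup.center G) : z ∈ (P : Subgroup G) := by
  haveI hn : (Subgroup.zpowers z).Normal := ⟨by
    rintro _ ⟨k, rfl⟩ g
    have : g * z ^ k = z ^ k * g := Subgroup.mem_center_iff.1 (zpow_mem hc k) g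
    show g * z ^ k * g⁻¹ ∈ _
    rw [this, mul_inv_cancel_right]
    exact Subgroup.zpow_mem_zpowers z k⟩
  have hp : IsPGroup 2 (Subgroup.zpowers z) := by
    rintro ⟨x, k, rfl⟩
    refine ⟨1, Subtype.ext ?_⟩
    show (z ^ k) ^ (2 ^ 1) = 1
    rw [pow_one, ← zpow_natCast, ← _root_.zpow_mul, mul_comm, _root_.zpow_mul, zpow_natCast, pow_two, hz,
      _root_.one_zpow]
  have hsup : IsPGroup 2 ((P : Subgroup G) ⊔ Subgroup.zpowers z : Subgroup G) :=
    IsPGroup.to_sup_of_normal_right P.2 hp
  exact (P.3 hsup le_sup_left).le (le_sup_right (a := (P : Subgroup G)) (Subgroup.mem_zpowers z))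

variable [Fintype F]

local notation "qF" => Fintype.card F

theorem two_ne (hF : Odd qF) : (2 : F) ≠ 0 := Known.two_ne_zero_of_odd_card hF

theorem hasRank_GL_one (hq : qF % 4 = 1) (S : Sylow 2 (GL (Fin n) F)) :
    HasRank (S : Subgroup (GL (Fin n) F)) n := by
  haveI : Fact (Nat.Prime 2) := ⟨Nat.prime_two⟩
  have h1 := Fintype.one_lt_card (α := F)
  have hF : Odd qF := Nat.odd_iff.2 (by omega)
  obtain ⟨μ⟩ : Nonempty (Sylow 2 Fˣ) := inferInstance
  obtain ⟨R⟩ : Nonempty (Sylow 2 (Perm (Fin n))) := inferInstance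
  set W := mono (μ : Subgroup Fˣ) (R : Subgroup (Perm (Fin n)))
  have hcard : Nat.card W = 2 ^ v₂ (Nat.card (GL (Fin n) F)) := by
    rw [card_mono, μ.card_eq_multiplicity, R.card_eq_multiplicity, Nat.factorization_def _ Nat.prime_two,
      Nat.factorization_def _ Nat.prime_two, Nat.card_units, Nat.card_perm, Nat.card_fin,
      Nat.card_eq_fintype_card (α := F), v_card_GL hF, v_prod_one_mod_four hq h1, ← pow_mul, ← pow_add,
      mul_comm]
  have hneg : ∀ u : ℤˣ, sg F u ∈ (μ : Subgroup Fˣ) := fun u => by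
    refine le_sylow_of_central μ ?_ (by rw [CommGroup.center_eq_top]; trivial)
    rw [← map_mul, Int.units_mul_self, map_one]
  let σ : (Fin n → ℤˣ) →* GL (Fin n) F := dg.comp (MonoidHom.pi fun i => (sg F).comp (Pi.evalMonoidHom _ i))
  refine hasRank_sylow (MonoidHom.id _) Function.injective_id W (fun x _ => ⟨x, rfl⟩) hcard ⟨?_, ?_⟩ S
  · obtain ⟨E, hn, he, hc⟩ := exists_normal_signs W σ (fun s t h => by
      obtain ⟨h', -⟩ := dg_mul_pm_inj (s := 1) (t := 1) (congrArg (· * pm F 1) h)
      exact funext fun i => sg_injective (two_ne hF) (congrFun h' i))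
      (fun s => ⟨fun i => sg F (s i), fun i => hneg _, 1, one_mem _, by rw [map_one, mul_one]; rfl⟩)
      (by
        rintro _ ⟨c, hc, π, hπ, rfl⟩ s
        refine ⟨fun i => s (π⁻¹ i), ?_⟩
        rw [eq_mul_inv_iff_mul_eq]
        show dg (fun i => sg F (s (π⁻¹ i))) * (dg c * pm F π) = dg c * pm F π * dg (fun i => sg F (s i))
        rw [← mul_assoc, mul_assoc (dg c) (pm F π), pm_mul_dg, ← mul_assoc, ← map_mul, ← map_mul]
        congr 2
        funext i
        exact mul_comm _ _)
    exact ⟨E, hn, he, by simpa using hc⟩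
  · intro E _ hE
    simpa using card_le_of_elemAb (two_ne hF) W.subtype Subtype.val_injective E hE

/-! ### `q ≡ 3 (mod 4)` -/

theorem exists_nonsquare_disc (hq : qF % 4 = 3) : ∃ c : F, ¬ IsSquare (c ^ 2 + 4) := by
  by_contra h
  push Not at h
  have key : ∀ k : ℕ, IsSquare ((4 * k : ℕ) : F) := by
    intro k
    induction k with
    | zero => simp
    | succ k ih =>
      obtain ⟨s, hs⟩ := ih
      have := h s
      rw [pow_two, ← hs] at this
      convert this using 1
      push_cast
      ring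
  obtain ⟨k, hk⟩ : ∃ k, 4 * k + 1 = 3 * qF := ⟨(3 * qF - 1) / 4, by omega⟩
  have := key k
  have e : ((4 * k : ℕ) : F) = -1 := by
    have h1 := congrArg (Nat.cast (R := F)) hk
    rw [Nat.cast_add, Nat.cast_one, Nat.cast_mul 3, FiniteField.cast_card_eq_zero, mul_zero] at h1
    exact eq_neg_of_add_eq_zero_left h1
  rw [e, FiniteField.isSquare_neg_one_iff] at this
  exact this hq

omit [Fintype F] in
theorem commutant {M T : Matrix (Fin 2) (Fin 2) F} {t : F} (ht : ¬ IsSquare (t ^ 2 + 4))
    (hM : M * M = t • M + 1) (hc : T * M = M * T) (hT : T * T = 1) : T = 1 ∨ T = -1 := by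
  have e : ∀ i j, (M * M) i j = t * M i j + (1 : Matrix (Fin 2) (Fin 2) F) i j := fun i j => by
    rw [hM]; simp
  have hm : M 0 1 ≠ 0 := by
    intro h0
    have h := e 0 0
    rw [Matrix.mul_apply, Fin.sum_univ_two, h0, Matrix.one_apply_eq] at h
    exact ht ⟨2 * M 0 0 - t, by linear_combination -4 * h⟩
  have c01 := congrFun (congrFun hc 0) 1
  have c00 := congrFun (congrFun hc 0) 0
  rw [Matrix.mul_apply, Matrix.mul_apply, Fin.sum_univ_two, Fin.sum_univ_two] at c01 c00
  set y := T 0 1 / M 0 1 with hy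
  set x := T 0 0 - y * M 0 0 with hx
  have h01 : T 0 1 = y * M 0 1 := by rw [hy, div_mul_cancel₀ _ hm]
  have hTe : T = x • (1 : Matrix (Fin 2) (Fin 2) F) + y • M := by
    have h11 : T 1 1 = x + y * M 1 1 := mul_left_cancel₀ hm (by
      rw [h01] at c01; rw [hx]; linear_combination -c01)
    have h10 : T 1 0 = y * M 1 0 := mul_left_cancel₀ hm (by
      rw [h01] at c00; linear_combination -c00)
    ext i j
    fin_cases i <;> fin_cases j <;> simp [h01, h10, h11, hx]
  have hsq : (x * x + y * y) • (1 : Matrix (Fin 2) (Fin 2) F) + (2 * x * y + t * (y * y)) • M = 1 := by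
    conv_rhs => rw [← hT, hTe]
    simp only [add_mul, mul_add, smul_mul_assoc, mul_smul_comm, one_mul, mul_one, smul_smul, hM, smul_add]
    module
  have s01 : (2 * x * y + t * (y * y)) * M 0 1 = 0 := by simpa using congrFun (congrFun hsq 0) 1
  have hz := (mul_eq_zero.1 s01).resolve_right hm
  have s00 : x * x + y * y = 1 := by
    have h := congrFun (congrFun hsq 0) 0
    simpa [hz] using h
  have hy0 : y = 0 := by
    by_contra hy0
    have h' : 2 * x + t * y = 0 := (mul_eq_zero.1 (show y * (2 * x + t * y) = 0 by linear_combination hz)).resolve_left hy0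
    refine ht ⟨2 / y, ?_⟩
    field_simp
    linear_combination (t * y - 2 * x) * h' + 4 * s00
  rw [hy0, mul_zero, add_zero] at s00
  rw [hTe, hy0, zero_smul, add_zero]
  rcases mul_self_eq_one_iff.1 s00 with h | h <;> rw [h]
  · left; rw [one_smul]
  · right; rw [neg_smul, one_smul]

omit [Fintype F] in
theorem det_sub_one_ne_zero {M : Matrix (Fin 2) (Fin 2) F} {t : F} (ht : ¬ IsSquare (t ^ 2 + 4))
    (hM : M * M = t • M + 1) : (M - 1).det ≠ 0 := by
  intro h
  obtain ⟨v, hv, hv'⟩ := Matrix.exists_mulVec_eq_zero_iff.2 h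
  rw [Matrix.sub_mulVec, Matrix.one_mulVec, sub_eq_zero] at hv'
  have h' := congrArg (fun A : Matrix (Fin 2) (Fin 2) F => A.mulVec v) hM
  simp only [← Matrix.mulVec_mulVec, Matrix.add_mulVec, Matrix.smul_mulVec, Matrix.one_mulVec, hv'] at h'
  rw [eq_comm, add_eq_right, smul_eq_zero] at h'
  exact ht ⟨2, by rw [h'.resolve_right hv]; norm_num⟩

theorem exists_plane_elem (hq : qF % 4 = 3) : ∃ (b : GL (Fin 2) F) (t : F), IsPGroup 2 (Subgroup.zpowers b) ∧
    ¬ IsSquare (t ^ 2 + 4) ∧
    (b : Matrix (Fin 2) (Fin 2) F) * b = t • (b : Matrix (Fin 2) (Fin 2) F) + 1 := by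
  obtain ⟨c, hc⟩ := exists_nonsquare_disc hq
  let M : Matrix (Fin 2) (Fin 2) F := !![0, 1; 1, c]
  have hdet : M.det = -1 := by simp [M, Matrix.det_fin_two_of]
  let b₀ : GL (Fin 2) F := Matrix.GeneralLinearGroup.mkOfDetNeZero M (by rw [hdet]; simp)
  have hb₀ : (b₀ : Matrix (Fin 2) (Fin 2) F) = M := rfl
  set k := orderOf b₀
  have hk : k ≠ 0 := (orderOf_pos b₀).ne'
  set o := k / 2 ^ k.factorization 2
  have hodd : Odd o := by
    have h := Nat.not_dvd_ordCompl Nat.prime_two hk
    rw [Nat.odd_iff]; simp only [o]; omega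
  have hpow : ∀ i : ℕ, ∃ x y : F, M ^ i = x • (1 : Matrix (Fin 2) (Fin 2) F) + y • M := by
    have hMM : M * M = 1 + c • M := by
      ext i j; fin_cases i <;> fin_cases j <;> simp [M, Matrix.mul_apply, Fin.sum_univ_two] <;> ring
    intro i
    induction i with
    | zero => exact ⟨1, 0, by simp⟩
    | succ i ih =>
      obtain ⟨x, y, h⟩ := ih
      refine ⟨y, x + y * c, ?_⟩
      rw [pow_succ, h, add_mul, smul_mul_assoc, smul_mul_assoc, one_mul, hMM]
      module
  obtain ⟨x, y, hxy⟩ := hpow o
  have hd : x * x + c * x * y - y * y = -1 := by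
    have h := congrArg Matrix.det hxy
    rw [Matrix.det_pow, hdet, hodd.neg_one_pow, Matrix.det_fin_two] at h
    simp [M] at h
    linear_combination -h
  have hy : y ≠ 0 := by
    rintro rfl
    have : IsSquare (-1 : F) := ⟨x, by linear_combination -hd⟩
    rw [FiniteField.isSquare_neg_one_iff] at this
    exact this hq
  refine ⟨b₀ ^ o, 2 * x + c * y, ?_, ?_, ?_⟩
  · rintro ⟨g, j, rfl⟩
    refine ⟨k.factorization 2, Subtype.ext ?_⟩
    show ((b₀ ^ o) ^ j) ^ (2 ^ k.factorization 2) = 1
    rw [← zpow_natCast, ← _root_.zpow_mul, mul_comm, _root_.zpow_mul, zpow_natCast, ← pow_mul,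
      Nat.div_mul_cancel (Nat.ordProj_dvd k 2), pow_orderOf_eq_one, _root_.one_zpow]
  · rw [show (2 * x + c * y) ^ 2 + 4 = y ^ 2 * (c ^ 2 + 4) by linear_combination 4 * hd]
    rintro ⟨r, hr⟩
    exact hc ⟨r / y, by field_simp; linear_combination hr⟩
  · rw [Units.val_pow_eq_pow_val, hb₀, hxy]
    ext i j
    fin_cases i <;> fin_cases j <;> simp [M, Matrix.mul_apply, Fin.sum_univ_two]
    · linear_combination -hd
    · ring
    · ring
    · linear_combination -hd

variable {m r : ℕ}

/-- Block diagonal embedding with extra diagonal coordinates. -/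
def emb : GL (Fin 2 × Fin m) F × (Fin r → Fˣ) →* GL ((Fin 2 × Fin m) ⊕ Fin r) F :=
  MonoidHom.toHomUnits
    { toFun := fun g => Matrix.fromBlocks (g.1 : Matrix (Fin 2 × Fin m) (Fin 2 × Fin m) F) 0 0
        (Matrix.diagonal fun j => (g.2 j : F))
      map_one' := by simp [Matrix.fromBlocks_one]
      map_mul' := fun a b => by simp [Matrix.fromBlocks_multiply, Matrix.diagonal_mul_diagonal] }

theorem emb_val (g : GL (Fin 2 × Fin m) F × (Fin r → Fˣ)) :
    ((emb g : GL ((Fin 2 × Fin m) ⊕ Fin r) F) : Matrix _ _ F) =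
      Matrix.fromBlocks (g.1 : Matrix (Fin 2 × Fin m) (Fin 2 × Fin m) F) 0 0
        (Matrix.diagonal fun j => (g.2 j : F)) := rfl

omit [Fintype F] in
theorem emb_injective : Function.Injective (emb (F := F) (m := m) (r := r)) := by
  intro a b h
  obtain ⟨h1, -, -, h4⟩ := Matrix.fromBlocks_inj.1 (congrArg Units.val h)
  refine Prod.ext (Units.ext h1) (funext fun j => Units.ext ?_)
  simpa using congrFun (congrFun h4 j) j

omit [Fintype F] in
/-- Scalar signs on the planes. -/
theorem scal_comm (u : Fˣ) (g : GL (Fin 2) F) :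
    Units.map (Matrix.scalar (Fin 2)).toMonoidHom u * g = g * Units.map (Matrix.scalar (Fin 2)).toMonoidHom u :=
  Units.ext (Matrix.scalar_commute (u : F) (fun _ => Commute.all _ _) _).eq

theorem card_units_two (hq : qF % 4 = 3) : Nat.card (Subgroup.zpowers (-1 : Fˣ)) = 2 := by
  rw [Nat.card_zpowers, ← orderOf_units, Units.val_neg, Units.val_one, orderOf_neg_one, if_neg]
  intro h
  have := FiniteField.even_card_of_char_two h
  omega

theorem hasRank_W_three (hq : qF % 4 = 3) (hr : r ≤ 1) :
    ∃ W : Subgroup (GL ((Fin 2 × Fin m) ⊕ Fin r) F),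
      Nat.card W = 2 ^ (v₂ (Nat.card (GL (Fin (2 * m + r)) F))) ∧ HasRank W (m + r) := by
  haveI : Fact (Nat.Prime 2) := ⟨Nat.prime_two⟩
  have h1 := Fintype.one_lt_card (α := F)
  have hF : Odd qF := Nat.odd_iff.2 (by omega)
  have h2 : (2 : F) ≠ 0 := two_ne hF
  obtain ⟨b, t, hbp, ht, hb⟩ := exists_plane_elem (F := F) hq
  obtain ⟨S, hS⟩ := hbp.exists_le_sylow
  obtain ⟨R⟩ : Nonempty (Sylow 2 (Perm (Fin m))) := inferInstance
  let μ : Subgroup (Fin r → Fˣ) := Subgroup.pi Set.univ fun _ => Subgroup.zpowers (-1 : Fˣ)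
  set W := ((wr (S : Subgroup (GL (Fin 2) F)) (R : Subgroup (Perm (Fin m)))).prod μ).map (emb (F := F))
  refine ⟨W, ?_, ?_, ?_⟩
  · have hμ : Nat.card μ = 2 ^ r := by
      rw [show (2 : ℕ) ^ r = Nat.card (Fin r → Subgroup.zpowers (-1 : Fˣ)) by
        rw [Nat.card_fun, card_units_two hq, Nat.card_fin]]
      exact Nat.card_congr
        { toFun := fun x j => ⟨x.1 j, x.2 j trivial⟩
          invFun := fun x => ⟨fun j => x j, fun j _ => (x j).2⟩
          left_inv := fun x => rfl
          right_inv := fun x => rfl }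
    have e := v_prod_all hF h1
    have hv2 : v₂ (Nat.card (GL (Fin 2) F)) = v₂ (qF - 1) + v₂ (qF ^ 2 - 1) := by
      have h := e 1
      rw [one_mul, one_mul, Nat.factorial_one, padicValNat_one_right, add_zero, mul_one] at h
      rw [v_card_GL hF, h]
    rw [Subgroup.card_map_of_injective emb_injective, Nat.card_congr (Subgroup.prodEquiv _ μ).toEquiv,
      Nat.card_prod, hμ, card_wr, S.card_eq_multiplicity, R.card_eq_multiplicity,
      Nat.factorization_def _ Nat.prime_two, Nat.factorization_def _ Nat.prime_two, hv2, Nat.card_perm,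
      Nat.card_fin, ← pow_mul, ← pow_add, ← pow_add, v_card_GL hF]
    congr 1
    have hv1 : v₂ (qF - 1) = 1 := by
      rw [show qF - 1 = 2 * ((qF - 1) / 2) by omega, padicValNat.mul two_ne_zero (by omega),
        padicValNat.self (by norm_num), padicValNat.eq_zero_of_not_dvd (by omega)]
    rcases Nat.le_one_iff_eq_zero_or_eq_one.1 hr with rfl | rfl
    · rw [Nat.add_zero, Nat.add_zero, e m]
      ring
    · rw [Finset.prod_range_succ, padicValNat.mul (Finset.prod_ne_zero_iff.2 fun i _ => pow_sub_one_ne h1 i)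
        (pow_sub_one_ne h1 _), e m, v_pow_sub_one_odd hF h1, hv1]
      ring
  · -- the normal subgroup
    let scal : ℤˣ →* GL (Fin 2) F := (Units.map (Matrix.scalar (Fin 2)).toMonoidHom).comp (sg F)
    let σ : (Fin m ⊕ Fin r → ℤˣ) →* GL ((Fin 2 × Fin m) ⊕ Fin r) F :=
      emb.comp ((blk.comp (MonoidHom.pi fun i => scal.comp (Pi.evalMonoidHom _ (Sum.inl i)))).prod
        (MonoidHom.pi fun j => (sg F).comp (Pi.evalMonoidHom _ (Sum.inr j))))
    have hσ : ∀ s, σ s = emb (blk (fun i => scal (s (Sum.inl i))), fun j => sg F (s (Sum.inr j))) := fun s => rfl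
    have hscalinj : Function.Injective scal := fun u v h => sg_injective h2 (Units.ext (by
      have := congrArg (fun g : GL (Fin 2) F => (g : Matrix (Fin 2) (Fin 2) F) 0 0) h
      simpa [scal] using this))
    obtain ⟨E, hn, he, hc⟩ := exists_normal_signs W σ (fun s u h => by
        have h' := emb_injective h
        obtain ⟨ha, -⟩ := blk_mul_prm_inj (s := 1) (t := 1) (congrArg (· * prm F 1) (congrArg Prod.fst h'))
        funext x
        rcases x with i | j
        · exact hscalinj (congrFun ha i)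
        · exact sg_injective h2 (congrFun (congrArg Prod.snd h') j))
      (fun s => by
        rw [hσ]
        refine Subgroup.mem_map_of_mem _ ⟨blk_mem_wr fun i => ?_, fun j _ => ?_⟩
        · refine le_sylow_of_central S ?_ ?_
          · rw [← map_mul, Int.units_mul_self, map_one]
          · rw [Subgroup.mem_center_iff]
            exact fun g => (scal_comm _ g).symm
        · show sg F (s (Sum.inr j)) ∈ Subgroup.zpowers (-1 : Fˣ)
          rcases Int.units_eq_one_or (s (Sum.inr j)) with h | h <;> rw [h]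
          · rw [map_one]; exact one_mem _
          · rw [sg_neg_one]; exact Subgroup.mem_zpowers _)
      (by
        rintro _ ⟨⟨g, u⟩, ⟨⟨c, hc, π, hπ, (hg : g = _)⟩, hu⟩, rfl⟩ s
        subst hg
        refine ⟨Sum.elim (fun i => s (Sum.inl (π⁻¹ i))) (fun j => s (Sum.inr j)), ?_⟩
        rw [eq_mul_inv_iff_mul_eq, hσ, hσ, ← map_mul, ← map_mul, Prod.mk_mul_mk, Prod.mk_mul_mk]
        simp only [Sum.elim_inl, Sum.elim_inr]
        congr 1
        refine Prod.ext ?_ (funext fun j => mul_comm _ _)
        show _ * (blk c * prm F π) = blk c * prm F π * _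
        rw [← mul_assoc, mul_assoc (blk c) (prm F π), prm_mul_blk, ← mul_assoc, ← map_mul, ← map_mul]
        congr 2
        funext i
        exact scal_comm _ _)
    exact ⟨E, hn, he, by simpa using hc⟩
  · intro E hn hE
    classical
    let ρ : W →* Matrix ((Fin 2 × Fin m) ⊕ Fin r) ((Fin 2 × Fin m) ⊕ Fin r) F :=
      (Units.coeHom _).comp W.subtype
    have hρ : Function.Injective ρ := fun x y h => Subtype.ext (Units.ext h)
    let D : Fin m → W := fun k =>
      ⟨emb (F := F) (r := r) (blk (Pi.mulSingle k b), (1 : Fin r → Fˣ)), Subgroup.mem_map_of_mem _ ⟨blk_mem_wr fun i => by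
        rcases eq_or_ne i k with rfl | hne
        · rw [Pi.mulSingle_eq_same]; exact hS (Subgroup.mem_zpowers b)
        · rw [Pi.mulSingle_eq_of_ne hne]; exact one_mem _, one_mem _⟩⟩
    have hDval : ∀ k, ρ (D k) = Matrix.fromBlocks
        (Matrix.blockDiagonal fun i => ((Pi.mulSingle k b : Fin m → GL (Fin 2) F) i : Matrix (Fin 2) (Fin 2) F))
        0 0 1 := fun k => by
      show ((emb (F := F) (r := r) (blk (Pi.mulSingle k b), (1 : Fin r → Fˣ)) :
        GL ((Fin 2 × Fin m) ⊕ Fin r) F) : Matrix ((Fin 2 × Fin m) ⊕ Fin r) ((Fin 2 × Fin m) ⊕ Fin r) F) = _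
      rw [emb_val, blk_val]
      simp
    have hcommD : ∀ e ∈ E, ∀ k, ρ e * ρ (D k) = ρ (D k) * ρ e := by
      intro e he k
      have key := commute_of_normalised h2 ((fun x : W => Matrix.toLin' (ρ x)) '' (E : Set W))
        (by
          rintro _ ⟨x, hx, rfl⟩ _ ⟨y, hy, rfl⟩ v
          simp only [Matrix.toLin'_apply, Matrix.mulVec_mulVec, ← map_mul]
          have hxy : x * y = y * x := congrArg Subtype.val (hE.1.is_comm.comm ⟨x, hx⟩ ⟨y, hy⟩)
          rw [hxy])
        (by
          rintro _ ⟨x, hx, rfl⟩ v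
          simp only [Matrix.toLin'_apply, Matrix.mulVec_mulVec, ← map_mul]
          rw [← pow_two, hE.2 x hx, map_one, Matrix.one_mulVec])
        (Matrix.toLin' (ρ (D k))) (fun u v h => by
          have h' := congrArg (fun z => (ρ (D k)⁻¹).mulVec z) h
          simpa [Matrix.mulVec_mulVec, ← map_mul] using h')
        (by
          rintro _ ⟨x, hx, rfl⟩
          refine ⟨_, ⟨(D k)⁻¹ * x * D k, by simpa using hn.conj_mem x hx (D k)⁻¹, rfl⟩, fun v => ?_⟩
          simp only [Matrix.toLin'_apply, Matrix.mulVec_mulVec, ← map_mul, ← mul_assoc, mul_inv_cancel, one_mul])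
        (by
          rintro _ ⟨x, hx, rfl⟩
          refine ⟨_, ⟨D k * x * (D k)⁻¹, hn.conj_mem x hx (D k), rfl⟩, fun v => ?_⟩
          simp only [Matrix.toLin'_apply, Matrix.mulVec_mulVec, ← map_mul, inv_mul_cancel_right])
        (t := t) ht (fun v => by
          have hM : ρ (D k) * (ρ (D k) * (ρ (D k) - 1)) =
              t • (ρ (D k) * (ρ (D k) - 1)) + (ρ (D k) - 1) := by
            have hblk : ∀ i, ((Pi.mulSingle k b : Fin m → GL (Fin 2) F) i : Matrix (Fin 2) (Fin 2) F) *
                (((Pi.mulSingle k b : Fin m → GL (Fin 2) F) i : Matrix (Fin 2) (Fin 2) F) *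
                  (((Pi.mulSingle k b : Fin m → GL (Fin 2) F) i : Matrix (Fin 2) (Fin 2) F) - 1)) =
                t • (((Pi.mulSingle k b : Fin m → GL (Fin 2) F) i : Matrix (Fin 2) (Fin 2) F) *
                  (((Pi.mulSingle k b : Fin m → GL (Fin 2) F) i : Matrix (Fin 2) (Fin 2) F) - 1)) +
                (((Pi.mulSingle k b : Fin m → GL (Fin 2) F) i : Matrix (Fin 2) (Fin 2) F) - 1) := by
              intro i
              rcases eq_or_ne i k with rfl | hne
              · rw [Pi.mulSingle_eq_same, ← mul_assoc, hb, add_mul, one_mul, smul_mul_assoc]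
              · rw [Pi.mulSingle_eq_of_ne hne]; simp
            rw [hDval]
            have hsub : ∀ c : Fin m → Matrix (Fin 2) (Fin 2) F,
                Matrix.fromBlocks (Matrix.blockDiagonal c) 0 0 (1 : Matrix (Fin r) (Fin r) F) - 1 =
                  Matrix.fromBlocks (Matrix.blockDiagonal (fun i => c i - 1)) 0 0 0 := by
              intro c
              rw [sub_eq_iff_eq_add, ← Matrix.fromBlocks_one, Matrix.fromBlocks_add,
                show (fun i => c i - 1) = c - 1 from rfl, Matrix.blockDiagonal_sub, Matrix.blockDiagonal_one]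
              simp
            rw [hsub]
            simp only [Matrix.fromBlocks_multiply, Matrix.fromBlocks_smul, Matrix.fromBlocks_add,
              Matrix.mul_zero, Matrix.zero_mul, add_zero, zero_add, smul_zero, ← Matrix.blockDiagonal_mul,
              ← Matrix.blockDiagonal_smul, ← Matrix.blockDiagonal_add]
            congr 2
            exact funext fun i => hblk i
          have h := congrArg (fun M => M.mulVec v) hM
          simpa [Matrix.sub_mulVec, Matrix.mulVec_sub, Matrix.add_mulVec, Matrix.smul_mulVec,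
            ← Matrix.mulVec_mulVec] using h)
        _ ⟨e, he, rfl⟩
      refine Matrix.toLin'.injective (LinearMap.ext fun v => ?_)
      rw [Matrix.toLin'_mul, Matrix.toLin'_mul]
      exact key v
    -- every element is a sign change
    have hform : ∀ e ∈ E, ∃ s : Fin m ⊕ Fin r → Bool, ρ e =
        Matrix.fromBlocks (Matrix.blockDiagonal fun i => if s (Sum.inl i) then 1 else -1) 0 0
          (Matrix.diagonal fun j => if s (Sum.inr j) then 1 else -1) := by
      intro e he
      obtain ⟨A, B, C, Z, hX⟩ : ∃ A B C Z, ρ e = Matrix.fromBlocks A B C Z :=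
        ⟨_, _, _, _, (Matrix.fromBlocks_toBlocks _).symm⟩
      have hd : (b : Matrix (Fin 2) (Fin 2) F).det ≠ 0 := Matrix.GeneralLinearGroup.det_ne_zero b
      have hu : IsUnit ((b : Matrix (Fin 2) (Fin 2) F) - 1) :=
        (Matrix.isUnit_iff_isUnit_det _).2 (isUnit_iff_ne_zero.2 (det_sub_one_ne_zero ht hb))
      have hk : ∀ k, A * Matrix.blockDiagonal (fun i => ((Pi.mulSingle k b : Fin m → GL (Fin 2) F) i : Matrix (Fin 2) (Fin 2) F))
            = Matrix.blockDiagonal (fun i => ((Pi.mulSingle k b : Fin m → GL (Fin 2) F) i : Matrix (Fin 2) (Fin 2) F)) * A ∧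
          B = Matrix.blockDiagonal (fun i => ((Pi.mulSingle k b : Fin m → GL (Fin 2) F) i : Matrix (Fin 2) (Fin 2) F)) * B ∧
          C * Matrix.blockDiagonal (fun i => ((Pi.mulSingle k b : Fin m → GL (Fin 2) F) i : Matrix (Fin 2) (Fin 2) F)) = C := by
        intro k
        have h := hcommD e he k
        rw [hX, hDval, Matrix.fromBlocks_multiply, Matrix.fromBlocks_multiply] at h
        simp only [Matrix.mul_zero, Matrix.zero_mul, add_zero, zero_add, Matrix.mul_one, Matrix.one_mul] at h
        obtain ⟨ha, hb', hc, -⟩ := Matrix.fromBlocks_inj.1 h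
        exact ⟨ha, hb', hc⟩
      let T : Fin m → Fin m → Matrix (Fin 2) (Fin 2) F := fun i j => Matrix.of fun a c => A (a, i) (c, j)
      have hT : ∀ (cs : Fin m → Matrix (Fin 2) (Fin 2) F) i j,
          (Matrix.of fun a c => (A * Matrix.blockDiagonal cs) (a, i) (c, j)) = T i j * cs j ∧
          (Matrix.of fun a c => (Matrix.blockDiagonal cs * A) (a, i) (c, j)) = cs i * T i j := by
        intro cs i j
        constructor <;> ext a c <;>
          simp [Matrix.mul_apply, Matrix.blockDiagonal_apply, Fintype.sum_prod_type, T]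
      have hTcomm : ∀ k i j, T i j * ((Pi.mulSingle k b : Fin m → GL (Fin 2) F) j : Matrix (Fin 2) (Fin 2) F) =
          ((Pi.mulSingle k b : Fin m → GL (Fin 2) F) i : Matrix (Fin 2) (Fin 2) F) * T i j := by
        intro k i j
        rw [← (hT (fun l => ((Pi.mulSingle k b : Fin m → GL (Fin 2) F) l : Matrix (Fin 2) (Fin 2) F)) i j).1,
          ← (hT (fun l => ((Pi.mulSingle k b : Fin m → GL (Fin 2) F) l : Matrix (Fin 2) (Fin 2) F)) i j).2, (hk k).1]
      have hoff : ∀ i j, i ≠ j → T i j = 0 := by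
        intro i j hij
        have h := hTcomm i i j
        rw [Pi.mulSingle_eq_same, Pi.mulSingle_eq_of_ne hij.symm, Units.val_one, mul_one] at h
        exact hu.mul_right_eq_zero.1 (by rw [sub_mul, one_mul, ← h, sub_self])
      have hA : A = Matrix.blockDiagonal fun i => T i i := by
        ext ⟨a, i⟩ ⟨c, j⟩
        rw [Matrix.blockDiagonal_apply]
        split_ifs with h
        · subst h; rfl
        · exact congrFun (congrFun (hoff i j h) a) c
      have hB : B = 0 := by
        ext ⟨a, i⟩ j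
        have h := (hk i).2.1
        have h' : ((b : Matrix (Fin 2) (Fin 2) F) - 1).mulVec (fun a => B (a, i) j) = 0 := by
          rw [Matrix.sub_mulVec, Matrix.one_mulVec, sub_eq_zero]
          funext a
          conv_rhs => rw [h]
          simp [Matrix.mul_apply, Matrix.blockDiagonal_apply, Fintype.sum_prod_type, Matrix.mulVec, dotProduct]
        have := Matrix.eq_zero_of_mulVec_eq_zero (det_sub_one_ne_zero ht hb) h'
        exact congrFun this a
      have hC : C = 0 := by
        ext j ⟨a, i⟩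
        have h := (hk i).2.2
        have h' : (fun a => C j (a, i)) ᵥ* ((b : Matrix (Fin 2) (Fin 2) F) - 1) = 0 := by
          rw [Matrix.vecMul_sub, Matrix.vecMul_one, sub_eq_zero]
          funext a
          conv_rhs => rw [← h]
          simp [Matrix.mul_apply, Matrix.blockDiagonal_apply, Fintype.sum_prod_type, Matrix.vecMul, dotProduct]
        have := Matrix.eq_zero_of_vecMul_eq_zero (det_sub_one_ne_zero ht hb) h'
        exact congrFun this a
      have hsq : ρ e * ρ e = 1 := by rw [← map_mul, ← pow_two, hE.2 e he, map_one]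
      rw [hX, hA, hB, hC, Matrix.fromBlocks_multiply, ← Matrix.fromBlocks_one, ← Matrix.blockDiagonal_mul] at hsq
      simp only [Matrix.mul_zero, Matrix.zero_mul, add_zero, zero_add] at hsq
      obtain ⟨hs1, -, -, hs4⟩ := Matrix.fromBlocks_inj.1 hsq
      rw [← Matrix.blockDiagonal_one] at hs1
      have hTi : ∀ i, T i i = 1 ∨ T i i = -1 := fun i => by
        refine commutant ht hb ?_ (congrFun (Matrix.blockDiagonal_injective hs1) i)
        have h := hTcomm i i i
        rwa [Pi.mulSingle_eq_same] at h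
      have hZ : ∀ j, Z j j = 1 ∨ Z j j = -1 := fun j => by
        have : Subsingleton (Fin r) := Fin.subsingleton_iff_le_one.2 hr
        have h := congrFun (congrFun hs4 j) j
        rw [Matrix.mul_apply, Fintype.sum_subsingleton _ j, Matrix.one_apply_eq] at h
        exact mul_self_eq_one_iff.1 h
      refine ⟨Sum.elim (fun i => decide (T i i = 1)) (fun j => decide (Z j j = 1)), ?_⟩
      rw [hX, hA, hB, hC]
      congr 1
      · congr 1
        funext i
        simp only [Sum.elim_inl, decide_eq_true_eq]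
        split_ifs with h
        · exact h
        · exact (hTi i).resolve_left h
      · have : Subsingleton (Fin r) := Fin.subsingleton_iff_le_one.2 hr
        ext i j
        obtain rfl := Subsingleton.elim i j
        simp only [Matrix.diagonal_apply_eq, Sum.elim_inr, decide_eq_true_eq]
        split_ifs with h
        · exact h
        · exact (hZ i).resolve_left h
    choose s hs using hform
    refine (Nat.card_le_card_of_injective (fun e : E => s e e.2) fun x y h => ?_).trans_eq ?_
    · refine Subtype.ext (hρ ?_)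
      rw [hs x x.2, hs y y.2]
      simp only at h
      rw [h]
    · simp

theorem hasRank_GL_three (hq : qF % 4 = 3) (S : Sylow 2 (GL (Fin n) F)) :
    HasRank (S : Subgroup (GL (Fin n) F)) ((n + 1) / 2) := by
  obtain ⟨m, r, hr, rfl⟩ : ∃ m r, r ≤ 1 ∧ n = 2 * m + r := ⟨n / 2, n % 2, by omega, by omega⟩
  obtain ⟨W, hc, hR⟩ := hasRank_W_three (F := F) (m := m) hq hr
  rw [show (2 * m + r + 1) / 2 = m + r by omega]
  let e : GL ((Fin 2 × Fin m) ⊕ Fin r) F ≃* GL (Fin (2 * m + r)) F :=
    reidx (((blockEquiv m).sumCongr (Equiv.refl _)).trans finSumFinEquiv)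
  refine hasRank_sylow (MonoidHom.id _) Function.injective_id (W.map e.toMonoidHom) (fun x _ => ⟨x, rfl⟩)
    ?_ ?_ S
  · rw [Subgroup.card_map_of_injective (f := e.toMonoidHom) e.injective, hc]
  · exact hasRank_congr (W.equivMapOfInjective e.toMonoidHom e.injective) hR

end Cfsg.Agent.SylowLinear.NormalRank
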