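import Cfsg.Prelude.Def_Transfer
import Cfsg.Agent.Known.InvolEigen
import Cfsg.Agent.SylowLinear.Main

/-!
Normal elementary abelian 2-subgroups: transport between Sylow subgroups, and the commutation lemma for
an isometry-like map with quadratic minimal polynomial on a plane.
-/

set_option autoImplicit false

namespace Cfsg.Agent.SylowLinear.NormalRank

/-- The normal 2-rank of `X` is `k`. -/
def HasRank (X : Type*) [Group X] (k : ℕ) : Prop :=
  (∃ E : Subgroup X, E.Normal ∧ Cfsg.IsElementaryAbelian 2 E ∧ 2 ^ k ≤ Nat.card ↥E) ∧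
    ∀ E : Subgroup X, E.Normal → Cfsg.IsElementaryAbelian 2 E → Nat.card ↥E ≤ 2 ^ k

theorem isElementaryAbelian_map {X Y : Type*} [Group X] [Group Y] (f : X →* Y) {E : Subgroup X}
    (h : Cfsg.IsElementaryAbelian 2 E) : Cfsg.IsElementaryAbelian 2 (E.map f) := by
  refine ⟨⟨⟨?_⟩⟩, ?_⟩
  · rintro ⟨_, x, hx, rfl⟩ ⟨_, y, hy, rfl⟩
    refine Subtype.ext ?_
    show f x * f y = f y * f x
    rw [← map_mul, ← map_mul]
    exact congrArg f (congrArg Subtype.val (h.1.is_comm.comm ⟨x, hx⟩ ⟨y, hy⟩))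
  · rintro _ ⟨x, hx, rfl⟩
    rw [← map_pow, h.2 x hx, map_one]

theorem hasRank_congr {X Y : Type*} [Group X] [Group Y] (e : X ≃* Y) {k : ℕ} (h : HasRank X k) :
    HasRank Y k := by
  obtain ⟨⟨E, hn, he, hc⟩, hle⟩ := h
  refine ⟨⟨E.map e.toMonoidHom, hn.map e.toMonoidHom e.surjective, isElementaryAbelian_map _ he, ?_⟩,
    fun E' hn' he' => ?_⟩
  · rwa [Subgroup.card_map_of_injective e.injective]
  · have h1 := hle (E'.map e.symm.toMonoidHom) (hn'.map _ e.symm.surjective) (isElementaryAbelian_map _ he')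
    rwa [Subgroup.card_map_of_injective e.symm.injective] at h1

/-- It is enough to treat one subgroup of Sylow order in an overgroup. -/
theorem hasRank_sylow {G M : Type*} [Group G] [Finite G] [Group M] (f : G →* M)
    (hf : Function.Injective f) (W : Subgroup M) (hW : W ≤ f.range)
    (hcard : Nat.card W = 2 ^ padicValNat 2 (Nat.card G)) {k : ℕ} (h : HasRank W k) (S : Sylow 2 G) :
    HasRank (S : Subgroup G) k := by
  haveI : Fact (Nat.Prime 2) := ⟨Nat.prime_two⟩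
  have hmap : (W.comap f).map f = W := Subgroup.map_comap_eq_self hW
  have hc : Nat.card (W.comap f) = 2 ^ (Nat.card G).factorization 2 := by
    rw [← Subgroup.card_map_of_injective (K := W.comap f) hf, hmap, hcard,
      Nat.factorization_def _ Nat.prime_two]
  let P : Sylow 2 G := Sylow.ofCard (W.comap f) hc
  let e : (W.comap f) ≃* W := ((W.comap f).equivMapOfInjective f hf).trans (MulEquiv.subgroupCongr hmap)
  exact hasRank_congr (P.equiv S) (hasRank_congr e.symm h)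

/-- Elementary abelian subgroups given by a sign homomorphism. -/
theorem exists_normal_signs {M : Type*} [Group M] (W : Subgroup M) {ι : Type*} [Fintype ι]
    (σ : (ι → ℤˣ) →* M) (hσ : Function.Injective σ) (hW : ∀ s, σ s ∈ W)
    (hnorm : ∀ w ∈ W, ∀ s, w * σ s * w⁻¹ ∈ σ.range) :
    ∃ E : Subgroup W, E.Normal ∧ Cfsg.IsElementaryAbelian 2 E ∧ 2 ^ Fintype.card ι ≤ Nat.card ↥E := by
  classical
  let τ : (ι → ℤˣ) →* W := σ.codRestrict W hW
  refine ⟨τ.range, ⟨?_⟩, ⟨⟨⟨?_⟩⟩, ?_⟩, ?_⟩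
  · rintro _ ⟨s, rfl⟩ w
    obtain ⟨t, ht⟩ := hnorm w w.2 s
    exact ⟨t, Subtype.ext ht⟩
  · rintro ⟨_, s, rfl⟩ ⟨_, t, rfl⟩
    exact Subtype.ext (by rw [Subgroup.coe_mul, Subgroup.coe_mul, ← map_mul, ← map_mul, mul_comm])
  · rintro _ ⟨s, rfl⟩
    rw [← map_pow, pow_two, show s * s = 1 from funext fun i => Int.units_mul_self _, map_one]
  · have hτ : Function.Injective τ := fun s t h => hσ (congrArg Subtype.val h)
    rw [← Nat.card_congr (MonoidHom.ofInjective hτ).toEquiv]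
    simp [Nat.card_eq_fintype_card]

variable {F : Type*} [Field F] {V : Type*} [AddCommGroup V] [Module F V] [FiniteDimensional F V]

/-- An eigenvector separated from the others has coefficient zero. -/
theorem coeff_zero (h2 : (2 : F) ≠ 0) {x y z w : V} (a₁ a₂ a₃ : V →ₗ[F] V) {s₁ s₂ s₃ : F} {r : F}
    (h11 : a₁ x = s₁ • x) (h12 : a₁ y = -s₁ • y) (h13 : ∃ e : F, a₁ z = e • z) (h14 : ∃ e : F, a₁ w = e • w)
    (h21 : a₂ x = s₂ • x) (h23 : a₂ z = -s₂ • z) (h24 : ∃ e : F, a₂ w = e • w)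
    (h31 : a₃ x = s₃ • x) (h34 : a₃ w = -s₃ • w)
    (hs₁ : s₁ * s₁ = 1) (hs₂ : s₂ * s₂ = 1) (hs₃ : s₃ * s₃ = 1)
    (hrel : r • x + y + z + w = 0) : r • x = 0 := by
  obtain ⟨e1, he1⟩ := h13
  obtain ⟨e1', he1'⟩ := h14
  obtain ⟨e2, he2⟩ := h24
  have k1 : (2 * s₁) • (r • x) + (s₁ + e1) • z + (s₁ + e1') • w = 0 := by
    have h := congrArg (fun v => a₁ v + s₁ • v) hrel
    simp only [map_add, map_smul, h11, h12, he1, he1', map_zero, smul_zero, add_zero, smul_add,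
      smul_smul] at h
    rw [← h]
    module
  have k2 : (2 * s₂) • ((2 * s₁) • (r • x)) + ((s₁ + e1') * (s₂ + e2)) • w = 0 := by
    have h := congrArg (fun v => a₂ v + s₂ • v) k1
    simp only [map_add, map_smul, h21, h23, he2, map_zero, smul_zero, add_zero, smul_add, smul_smul] at h
    rw [← h]
    module
  have k3 : (2 * s₃) • ((2 * s₂) • ((2 * s₁) • (r • x))) = 0 := by
    have h := congrArg (fun v => a₃ v + s₃ • v) k2
    simp only [map_add, map_smul, h31, h34, map_zero, smul_zero, add_zero, smul_add, smul_smul] at h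
    rw [← h]
    module
  have hne : ∀ s : F, s * s = 1 → 2 * s ≠ 0 := fun s hs h => by
    rcases mul_eq_zero.1 h with h | h
    · exact h2 h
    · rw [h, mul_zero] at hs; exact zero_ne_one hs
  simpa [hne _ hs₁, hne _ hs₂, hne _ hs₃, smul_eq_zero] using k3

/-- A commuting family of involutions normalised by `D`, with `(D - 1) (D ^ 2 - t D - 1) = 0` and
`t ^ 2 + 4` a non-square, commutes with `D`. -/
theorem commute_of_normalised (h2 : (2 : F) ≠ 0) (A : Set (V →ₗ[F] V))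
    (hcomm : ∀ a ∈ A, ∀ b ∈ A, ∀ v, a (b v) = b (a v)) (hsq : ∀ a ∈ A, ∀ v, a (a v) = v)
    (D : V →ₗ[F] V) (hD : Function.Injective D)
    (hl : ∀ a ∈ A, ∃ a' ∈ A, ∀ v, a (D v) = D (a' v)) (hr : ∀ a ∈ A, ∃ a' ∈ A, ∀ v, a' (D v) = D (a v))
    {t : F} (ht : ¬ IsSquare (t ^ 2 + 4))
    (hrel : ∀ v, D (D (D v - v)) = t • D (D v - v) + (D v - v)) :
    ∀ a ∈ A, ∀ v, a (D v) = D (a v) := by
  obtain ⟨b, hb⟩ := Known.exists_common_eigenbasis h2 A hcomm hsq
  suffices h : ∀ v : V, v ≠ 0 → (∀ a ∈ A, ∃ s : F, s * s = 1 ∧ a v = s • v) → ∀ a ∈ A, a (D v) = D (a v) by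
    intro a ha
    have : a ∘ₗ D = D ∘ₗ a := b.ext fun i => h (b i) (b.ne_zero i) (fun a ha => (hb a ha i).elim
      (fun e => ⟨1, one_mul 1, by rw [e, one_smul]⟩)
      (fun e => ⟨-1, by ring, by rw [e, neg_one_smul]⟩)) a ha
    exact fun v => LinearMap.congr_fun this v
  intro v hv0 hv
  choose σ hσ hσv using hv
  have hstep : ∀ (x : V) (χ : ∀ a ∈ A, F), (∀ a (ha : a ∈ A), χ a ha * χ a ha = 1 ∧ a x = χ a ha • x) →
      ∀ a ∈ A, ∃ a' , ∃ ha' : a' ∈ A, χ a' ha' * χ a' ha' = 1 ∧ a (D x) = χ a' ha' • D x := by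
    intro x χ hχ a ha
    obtain ⟨a', ha', he⟩ := hl a ha
    exact ⟨a', ha', (hχ a' ha').1, by rw [he, (hχ a' ha').2, map_smul]⟩
  have h1 : ∀ a ∈ A, ∃ s : F, s * s = 1 ∧ a (D v) = s • D v := fun a ha => by
    obtain ⟨a', ha', hs, he⟩ := hstep v σ (fun a ha => ⟨hσ a ha, hσv a ha⟩) a ha
    exact ⟨_, hs, he⟩
  choose σ₁ hσ₁ hσ₁v using h1
  have h2' : ∀ a ∈ A, ∃ s : F, s * s = 1 ∧ a (D (D v)) = s • D (D v) := fun a ha => by
    obtain ⟨a', ha', hs, he⟩ := hstep (D v) σ₁ (fun a ha => ⟨hσ₁ a ha, hσ₁v a ha⟩) a ha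
    exact ⟨_, hs, he⟩
  choose σ₂ hσ₂ hσ₂v using h2'
  have h3' : ∀ a ∈ A, ∃ s : F, s * s = 1 ∧ a (D (D (D v))) = s • D (D (D v)) := fun a ha => by
    obtain ⟨a', ha', hs, he⟩ := hstep (D (D v)) σ₂ (fun a ha => ⟨hσ₂ a ha, hσ₂v a ha⟩) a ha
    exact ⟨_, hs, he⟩
  choose σ₃ hσ₃ hσ₃v using h3'
  have hne : ∀ {x : V}, x ≠ 0 → D x ≠ 0 := fun {x} hx h => hx (hD (by rw [h, map_zero]))
  have hpm : ∀ s s' : F, s * s = 1 → s' * s' = 1 → s' ≠ s → s' = -s := fun s s' h h' hne' =>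
    (mul_self_eq_mul_self_iff.1 (h'.trans h.symm)).resolve_left hne'
  by_contra hcon
  push Not at hcon
  obtain ⟨a, ha, hane⟩ := hcon
  have hσ01 : σ₁ a ha = -σ a ha := hpm _ _ (hσ a ha) (hσ₁ a ha) fun e => hane (by
    rw [hσ₁v a ha, e, hσv a ha, map_smul])
  have hrel' : (-(1 + t)) • D (D v) + D (D (D v)) + (-(1 - t)) • D v + v = 0 := by
    have h := hrel v
    simp only [map_sub] at h
    have h' := sub_eq_zero.2 h
    rw [← h']
    module
  by_cases h02 : ∀ a' (ha' : a' ∈ A), σ₂ a' ha' = σ a' ha'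
  · have h3a : σ₃ a ha = -σ a ha := by
      obtain ⟨a', ha', he⟩ := hl a ha
      have e3 : σ₃ a ha = σ₂ a' ha' := smul_left_injective F (hne (hne (hne hv0))) (by
        show σ₃ a ha • D (D (D v)) = σ₂ a' ha' • D (D (D v))
        rw [← hσ₃v a ha, he, hσ₂v a' ha', map_smul])
      have e1 : σ₁ a ha = σ a' ha' := smul_left_injective F (hne hv0) (by
        show σ₁ a ha • D v = σ a' ha' • D v
        rw [← hσ₁v a ha, he, hσv a' ha', map_smul])
      rw [e3, h02 a' ha', ← e1, hσ01]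
    have h2a := h02 a ha
    have hplus : (-(1 + t)) • D (D v) + v = 0 := by
      have h := congrArg (fun x => a x + σ a ha • x) hrel'
      simp only [map_add, map_smul, hσ₂v a ha, hσ₁v a ha, hσ₃v a ha, hσv a ha, h3a, h2a, hσ01,
        map_zero, smul_zero, add_zero, smul_add, smul_smul] at h
      have h' : (2 * σ a ha) • ((-(1 + t)) • D (D v) + v) = 0 := by
        rw [← h]; module
      refine (smul_eq_zero.1 h').resolve_left fun e => ?_
      have := hσ a ha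
      rw [(mul_eq_zero.1 e).resolve_left h2, mul_zero] at this
      exact zero_ne_one this
    have h1t : (1 : F) + t ≠ 0 := fun e => hv0 (by simpa [e] using hplus)
    have hk : D (D v) = (1 + t)⁻¹ • v := by
      have hv' : v = (1 + t) • D (D v) := by
        rw [neg_smul, neg_add_eq_sub, sub_eq_zero] at hplus
        exact hplus
      conv_rhs => rw [hv', smul_smul, inv_mul_cancel₀ h1t, one_smul]
    set k := (1 + t)⁻¹
    set w := D v - v with hw
    have hDDw : D (D w) = k • w := by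
      rw [hw, map_sub, map_sub, hk, map_smul, smul_sub]
    have ht0 : t ≠ 0 := fun e => ht ⟨2, by rw [e]; norm_num⟩
    have hDw : D w = ((k - 1) / t) • w := by
      have h := hrel v
      rw [← hw, hDDw] at h
      have : t • D w = (k - 1) • w := by rw [sub_smul, one_smul, h, add_sub_cancel_right]
      rw [div_eq_inv_mul, mul_smul, ← this, smul_smul, inv_mul_cancel₀ ht0, one_smul]
    have hw0 : w = 0 := by
      have h := hrel v
      rw [← hw, hDw, map_smul, hDw, smul_smul, smul_smul] at h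
      have h' : (((k - 1) / t) * ((k - 1) / t) - t * ((k - 1) / t) - 1) • w = 0 := by
        rw [sub_smul, sub_smul, one_smul, h]; abel
      refine (smul_eq_zero.1 h').resolve_left fun e => ht ⟨2 * ((k - 1) / t) - t, ?_⟩
      linear_combination -4 * e
    rw [hw, sub_eq_zero] at hw0
    exact hane (by rw [hw0, hσv a ha, map_smul, hw0])
  · push Not at h02
    obtain ⟨a₂, ha₂, hne₂⟩ := h02
    have h₂ : σ₂ a₂ ha₂ = -σ a₂ ha₂ := hpm _ _ (hσ a₂ ha₂) (hσ₂ a₂ ha₂) hne₂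
    obtain ⟨a₁', ha₁', he₁⟩ := hr a ha
    have e2 : σ₂ a₁' ha₁' = σ₁ a ha := smul_left_injective F (hne (hne hv0)) (by
      show σ₂ a₁' ha₁' • D (D v) = σ₁ a ha • D (D v)
      rw [← hσ₂v a₁' ha₁', he₁, hσ₁v a ha, map_smul])
    have e1 : σ₁ a₁' ha₁' = σ a ha := smul_left_injective F (hne hv0) (by
      show σ₁ a₁' ha₁' • D v = σ a ha • D v
      rw [← hσ₁v a₁' ha₁', he₁, hσv a ha, map_smul])
    by_cases h03 : ∀ a' (ha' : a' ∈ A), σ₃ a' ha' = σ a' ha'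
    · have c1 : (-(1 + t)) • D (D v) = 0 := coeff_zero (x := D (D v)) (y := v) (z := (-(1 - t)) • D v)
          (w := D (D (D v))) h2 a₂ a₁' a₂ (s₁ := σ₂ a₂ ha₂) (s₂ := σ₂ a₁' ha₁') (s₃ := σ₂ a₂ ha₂)
          (hσ₂v a₂ ha₂) (by rw [hσv a₂ ha₂, h₂, neg_neg])
          ⟨σ₁ a₂ ha₂, by rw [map_smul, hσ₁v a₂ ha₂, smul_comm]⟩ ⟨σ₃ a₂ ha₂, hσ₃v a₂ ha₂⟩
          (hσ₂v a₁' ha₁') (by
            rw [map_smul, hσ₁v a₁' ha₁', e1, e2, hσ01, neg_neg, smul_comm])
          ⟨σ₃ a₁' ha₁', hσ₃v a₁' ha₁'⟩ (hσ₂v a₂ ha₂) (by rw [hσ₃v a₂ ha₂, h03, h₂, neg_neg])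
          (hσ₂ _ _) (hσ₂ _ _) (hσ₂ _ _) (by rw [← hrel']; abel)
      have c2 : (-(1 - t)) • D v = 0 := coeff_zero (x := D v) (y := v) (z := (-(1 + t)) • D (D v))
          (w := D (D (D v))) h2 a a₁' a (s₁ := σ₁ a ha) (s₂ := σ₁ a₁' ha₁') (s₃ := σ₁ a ha)
          (hσ₁v a ha) (by rw [hσv a ha, hσ01, neg_neg])
          ⟨σ₂ a ha, by rw [map_smul, hσ₂v a ha, smul_comm]⟩ ⟨σ₃ a ha, hσ₃v a ha⟩
          (hσ₁v a₁' ha₁') (by rw [map_smul, hσ₂v a₁' ha₁', e1, e2, hσ01, smul_comm])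
          ⟨σ₃ a₁' ha₁', hσ₃v a₁' ha₁'⟩ (hσ₁v a ha) (by rw [hσ₃v a ha, h03, hσ01, neg_neg])
          (hσ₁ _ _) (hσ₁ _ _) (hσ₁ _ _) (by rw [← hrel']; abel)
      have r1 : -(1 + t) = 0 := (smul_eq_zero.1 c1).resolve_right (hne (hne hv0))
      have r2 : -(1 - t) = 0 := (smul_eq_zero.1 c2).resolve_right (hne hv0)
      exact h2 (by linear_combination -r1 - r2)
    · push Not at h03
      obtain ⟨a₃, ha₃, hne₃⟩ := h03
      have h₃ : σ₃ a₃ ha₃ = -σ a₃ ha₃ := hpm _ _ (hσ a₃ ha₃) (hσ₃ a₃ ha₃) hne₃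
      have c0 : (1 : F) • v = 0 := coeff_zero (x := v) (y := (-(1 - t)) • D v) (z := (-(1 + t)) • D (D v))
          (w := D (D (D v))) h2 a a₂ a₃ (s₁ := σ a ha) (s₂ := σ a₂ ha₂) (s₃ := σ a₃ ha₃)
          (hσv a ha) (by rw [map_smul, hσ₁v a ha, hσ01, smul_comm])
          ⟨σ₂ a ha, by rw [map_smul, hσ₂v a ha, smul_comm]⟩ ⟨σ₃ a ha, hσ₃v a ha⟩
          (hσv a₂ ha₂) (by rw [map_smul, hσ₂v a₂ ha₂, h₂, smul_comm])
          ⟨σ₃ a₂ ha₂, hσ₃v a₂ ha₂⟩ (hσv a₃ ha₃) (by rw [hσ₃v a₃ ha₃, h₃])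
          (hσ _ _) (hσ _ _) (hσ _ _) (by rw [← hrel', one_smul]; abel)
      rw [one_smul] at c0
      exact hv0 c0

end Cfsg.Agent.SylowLinear.NormalRank
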